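import Cfsg.Agent.H571.RV.Pred
import Cfsg.Agent.H454.PiBS.Cls

/-!
# `DB π S` (TEAM RV, S4322) gives `Cls π A` (S3876)
-/

set_option autoImplicit false
set_option linter.unusedSectionVars false

namespace Cfsg.Agent.H948.RV

open Subgroup Cfsg Cfsg.Agent.H988.CPi Cfsg.Agent.H571.RV Cfsg.Agent.H454.PiBS

variable {π : Set ℕ} {S : Type*} [Group S]

/-- the action on the Hall subgroups -/
@[reducible] def hallAction (π : Set ℕ) (A : Subgroup (MulAut S)) : MulAction A {H : Subgroup S // IsPiHall π H} where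
  smul a H := ⟨H.1.map ((a : MulAut S) : S ≃* S).toMonoidHom, Cfsg.Agent.H469.PiBS.isPiHall_map _ H.2⟩
  one_smul H := by
    apply Subtype.ext
    show H.1.map (MonoidHom.id S) = H.1
    exact Subgroup.map_id _
  mul_smul a b H := by
    apply Subtype.ext
    show H.1.map (((a : MulAut S) * (b : MulAut S) : MulAut S) : S ≃* S).toMonoidHom =
      (H.1.map ((b : MulAut S) : S ≃* S).toMonoidHom).map ((a : MulAut S) : S ≃* S).toMonoidHom
    rw [Subgroup.map_map]
    rfl

/-- the number of Hall `π`-subgroups -/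
theorem card_hall {A : Subgroup (MulAut S)}
    (htr : ∀ H K : Subgroup S, IsPiHall π H → IsPiHall π K → ∃ α ∈ A, K = H.map (α : S ≃* S).toMonoidHom)
    {H : Subgroup S} (hH : IsPiHall π H) :
    Nat.card {H : Subgroup S // IsPiHall π H} = (stab H).relIndex A := by
  let _ := hallAction (S := S) π A
  have hpt : MulAction.IsPretransitive A {H : Subgroup S // IsPiHall π H} := by
    refine ⟨fun K L => ?_⟩
    obtain ⟨α, hα, e⟩ := htr K.1 L.1 K.2 L.2
    exact ⟨⟨α, hα⟩, Subtype.ext e.symm⟩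
  rw [← MulAction.index_stabilizer_of_transitive (G := A) (x := (⟨H, hH⟩ : {H : Subgroup S // IsPiHall π H}))]
  have h1 : MulAction.stabilizer A (⟨H, hH⟩ : {H : Subgroup S // IsPiHall π H}) = (stab H).subgroupOf A := by
    ext a
    rw [MulAction.mem_stabilizer_iff, mem_subgroupOf, mem_stab]
    exact Subtype.ext_iff
  rw [h1]
  rfl

/-- the number of the conjugates of a Hall subgroup -/
theorem stab_inn_dvd {H : Subgroup S} : (stab H).relIndex (inn S) ∣ H.index := by
  unfold inn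
  rw [← Subgroup.index_comap]
  apply Subgroup.index_dvd_of_le
  intro h hh
  rw [mem_comap, mem_stab]
  ext x
  constructor
  · rintro ⟨y, hy, rfl⟩
    exact H.mul_mem (H.mul_mem hh hy) (H.inv_mem hh)
  · intro hx
    refine ⟨h⁻¹ * x * h, H.mul_mem (H.mul_mem (H.inv_mem hh) hx) hh, ?_⟩
    show h * (h⁻¹ * x * h) * h⁻¹ = x
    group

theorem card_mul_relIndex_of_le {X : Type*} [Group X] {H K : Subgroup X} (h : H ≤ K) :
    Nat.card H * H.relIndex K = Nat.card K := by
  rw [← Subgroup.card_mul_index (H.subgroupOf K), relIndex,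
    Nat.card_congr (Subgroup.subgroupOfEquivOfLe h).toEquiv]

theorem relIndex_sup_normal {X : Type*} [Group X] [Finite X] (H N : Subgroup X) [N.Normal] :
    H.relIndex (H ⊔ N) = H.relIndex N := by
  have h1 : Nat.card N * N.relIndex (H ⊔ N) = Nat.card ↥(H ⊔ N) :=
    card_mul_relIndex_of_le le_sup_right
  have h2 : Nat.card H * H.relIndex (H ⊔ N) = Nat.card ↥(H ⊔ N) :=
    card_mul_relIndex_of_le le_sup_left
  have h3 : Nat.card ↥(H ⊓ N) * H.relIndex N = Nat.card N := by
    rw [← inf_relIndex_right]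
    exact card_mul_relIndex_of_le inf_le_right
  have h4 : Nat.card ↥(H ⊓ N) * N.relIndex H = Nat.card H := by
    rw [← inf_relIndex_left]
    exact card_mul_relIndex_of_le inf_le_left
  rw [relIndex_sup_right] at h1
  have h5 : 0 < Nat.card H := Nat.card_pos
  have h6 : 0 < Nat.card ↥(H ⊓ N) := Nat.card_pos
  apply Nat.eq_of_mul_eq_mul_left (Nat.mul_pos h5 h6)
  calc Nat.card H * Nat.card ↥(H ⊓ N) * H.relIndex (H ⊔ N)
      = Nat.card ↥(H ⊓ N) * (Nat.card H * H.relIndex (H ⊔ N)) := by ring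
    _ = Nat.card ↥(H ⊓ N) * (Nat.card N * N.relIndex H) := by rw [h2, h1]
    _ = (Nat.card ↥(H ⊓ N) * N.relIndex H) * Nat.card N := by ring
    _ = Nat.card H * (Nat.card ↥(H ⊓ N) * H.relIndex N) := by rw [h4, h3]
    _ = _ := by ring

/-- **`DB π S` gives `Cls π A`.** -/
theorem _root_.Cfsg.Agent.H571.RV.DB.cls [Finite S] (h : DB π S) :
    ∃ A : Subgroup (MulAut S), inn S ≤ A ∧ Cls π A := by
  obtain ⟨A, hA, htr, hcnt⟩ := h.out
  refine ⟨A, hA, h.dom, fun H H' hH hH' => ?_, ?_⟩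
  · obtain ⟨α, hα, e⟩ := htr H H' hH hH'
    exact ⟨α, hα, e.symm⟩
  · intro r hr hrpi hd
    obtain ⟨H, hH, -⟩ := h.dom ⊥ (by
      intro p hp hd
      rw [Subgroup.card_bot] at hd
      exact absurd (Nat.dvd_one.mp hd) hp.one_lt.ne')
    rw [card_hall htr hH, ← inf_relIndex_right,
      ← relIndex_mul_relIndex (stab H ⊓ A) ((stab H ⊓ A) ⊔ inn S) A le_sup_left (sup_le inf_le_right hA)] at hd
    rcases (Nat.Prime.dvd_mul hr).1 hd with h1 | h1
    · have h2 : (stab H ⊓ A).relIndex ((stab H ⊓ A) ⊔ inn S) = (stab H).relIndex (inn S) := by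
        rw [relIndex_sup_normal, ← inf_relIndex_right, inf_assoc, inf_eq_right.mpr hA, inf_relIndex_right]
      rw [h2] at h1
      exact hH.2 r hr hrpi (h1.trans stab_inn_dvd)
    · exact hcnt H hH r hr hrpi h1

end Cfsg.Agent.H948.RV
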